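import Cfsg.Agent.LyExist36.Sub
import Cfsg.Agent.LyIndex33.Nodes
import Cfsg.Agent.LyThree33.Assembly

/-!
The involution centraliser of the presented Lyons group.
-/

set_option autoImplicit false

namespace CfsgLib.LyExist36

open Cfsg

/-- an involution of the presented Lyons group centralised by a non-split double cover of `A₁₁` -/
theorem exists_involution_cover : ∃ t : Cfsg.Spor.Ly, orderOf t = 2 ∧
    IsNonsplitDoubleCover (Subgroup.centralizer ({t} : Set Cfsg.Spor.Ly))
      (alternatingGroup (Fin 11)) :=
  exists_cover_of_isLy CfsgLib.LyThree33.index_isLy.2 CfsgLib.LyThree33.index_isLy.1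
    (CfsgLib.Ly33.card_gWord_le CfsgLib.LyThree33.index_isLy.1)

end CfsgLib.LyExist36
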